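import Mathlib
import Cfsg.Agent.Lib.Helper20.U3Aut
import Cfsg.Agent.Lib.Helper20.U3Syl2
import Cfsg.Agent.Lib.Helper43.BinQuad2
import Cfsg.Agent.S0754
import Cfsg.Agent.Lib.Helper5.SUOrder
import Cfsg.Agent.Lib.Helper5.GUOrder

/-!
# Involutory automorphisms (modulo inner ones) of the Sylow 2-subgroup of `SU₃(q)` centralize
the centre
-/

set_option autoImplicit false
set_option linter.unusedSectionVars false

namespace Cfsg.Agent.Lib.Helper20.U3Syl

open Cfsg.Agent.Lib.Helper43

variable {F : Type*} [Field F] [Fintype F] {q : ℕ} [hF : Fact (Fintype.card F = q ^ 2)]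
  [h2 : Fact ((2 : F) = 0)]

theorem norm_add (u v : F) :
    (u + v) ^ (q + 1) = u ^ (q + 1) + v ^ (q + 1) + (u ^ q * v + u * v ^ q) := by
  rw [pow_succ, addq]; ring

/-- the field-level core -/
theorem core_idx (A B : F → F)
    (hA : ∀ a b, A (a + b) = A a + A b) (hAA : ∀ a, A (A a) = a)
    (hBfix : ∀ c, c ^ q = c → (B c) ^ q = B c)
    (hB : ∀ c d, c ^ q = c → d ^ q = d → B (c + d) = B c + B d)
    (hBB : ∀ c, c ^ q = c → B (B c) = c)
    (hN : ∀ a, B (a ^ (q + 1)) = (A a) ^ (q + 1)) : ∀ c, c ^ q = c → B c = c := by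
  classical
  intro c₁ hc₁
  by_contra hne
  have hq0 : q ≠ 0 := q0 F
  letI : Module (ZMod 2) F := AddCommGroup.zmodModule (fun x => by
    rw [two_nsmul]; exact add_self0 x)
  -- the submodule of fixed points of `B`
  let Y : Submodule (ZMod 2) F := AddSubgroup.toZModSubmodule 2
    { carrier := {c | c ^ q = c ∧ B c = c}
      zero_mem' := by
        refine ⟨zero_pow hq0, ?_⟩
        have := hB 0 0 (zero_pow hq0) (zero_pow hq0)
        rw [add_zero] at this
        exact (left_eq_add.mp this)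
      add_mem' := by
        rintro a b ⟨ha, ha'⟩ ⟨hb, hb'⟩
        exact ⟨by rw [addq, ha, hb], by rw [hB a b ha hb, ha', hb']⟩
      neg_mem' := by
        rintro a ⟨ha, ha'⟩
        have : -a = a := by
          have := add_self0 a
          exact neg_eq_of_add_eq_zero_left this
        rw [Set.mem_setOf_eq, this]; exact ⟨ha, ha'⟩ }
  have hY : ∀ c, c ∈ Y ↔ (c ^ q = c ∧ B c = c) := fun c => Iff.rfl
  have hc₁Y : c₁ ∉ Y := fun h => hne ((hY c₁).1 h).2
  obtain ⟨ℓ, hℓ1, hℓ2⟩ := Submodule.exists_dual_map_eq_bot_of_notMem hc₁Y inferInstance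
  have hℓY : ∀ c ∈ Y, ℓ c = 0 := by
    intro c hc
    have : ℓ c ∈ Y.map ℓ := Submodule.mem_map_of_mem hc
    rw [hℓ2] at this
    exact (Submodule.mem_bot _).1 this
  -- `ℓ ∘ B = ℓ` on the fixed field
  have hℓB : ∀ c, c ^ q = c → ℓ (B c) = ℓ c := by
    intro c hc
    have h1 : c + B c ∈ Y := by
      rw [hY]
      refine ⟨by rw [addq, hc, hBfix c hc], ?_⟩
      rw [hB c (B c) hc (hBfix c hc), hBB c hc, add_comm]
    have h3 := hℓY _ h1
    rw [map_add] at h3
    have h4 := zmod2_add_self (ℓ (B c))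
    have : ℓ c = ℓ c + (ℓ (B c) + ℓ (B c)) := by rw [h4, add_zero]
    rw [this, ← add_assoc, h3, zero_add]
  -- the bilinear form
  let Bf : LinearMap.BilinForm (ZMod 2) F := LinearMap.mk₂ (ZMod 2)
    (fun x y => ℓ (x ^ q * y + x * y ^ q))
    (by intro x x' y; rw [← map_add, addq]; congr 1; ring)
    (by
      intro c x y
      rcases zmod2_cases c with rfl | rfl
      · simp [zero_pow hq0]
      · simp)
    (by intro x y y'; rw [← map_add, addq]; congr 1; ring)
    (by
      intro c x y
      rcases zmod2_cases c with rfl | rfl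
      · simp [zero_pow hq0]
      · simp)
  have hBf : ∀ x y, Bf x y = ℓ (x ^ q * y + x * y ^ q) := fun x y => rfl
  let Q : F → ZMod 2 := fun x => ℓ (x ^ (q + 1))
  have hQ : ∀ u v, Q (u + v) = Q u + Q v + Bf u v := by
    intro u v
    change ℓ _ = ℓ _ + ℓ _ + ℓ _
    rw [norm_add, map_add, map_add]
  have hnd : ∀ t, t ≠ 0 → ∃ u, Bf u t ≠ 0 := by
    intro t ht
    obtain ⟨e, he⟩ := exists_trace (q := q) c₁ hc₁
    refine ⟨e / t ^ q, ?_⟩
    rw [hBf]
    have h1 : (e / t ^ q) ^ q * t + e / t ^ q * t ^ q = c₁ := by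
      have htq : t ^ q ≠ 0 := pow_ne_zero _ ht
      rw [div_pow, qq, div_mul_cancel₀ _ ht, div_mul_cancel₀ _ htq, add_comm, he]
    rw [h1]; exact hℓ1
  have hQA : ∀ x, Q (A x) = Q x := by
    intro x
    change ℓ _ = ℓ _
    rw [← hN, hℓB _ (normq x)]
  have hBfA : ∀ x y, Bf (A x) (A y) = Bf x y := by
    intro x y
    have h1 := hQ x y
    have h3 := hQ (A x) (A y)
    rw [← hA, hQA, hQA, hQA, h1] at h3
    exact (add_left_cancel h3).symm
  have hBfsymm : ∀ x y, Bf x y = Bf y x := by
    intro x y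
    rw [hBf, hBf]; congr 1; ring
  let W : Submodule (ZMod 2) F := AddSubgroup.toZModSubmodule 2
    { carrier := {x | A x = x}
      zero_mem' := by
        have := hA 0 0
        rw [add_zero] at this
        exact (left_eq_add.mp this)
      add_mem' := by
        intro a b ha hb
        change A (a + b) = a + b
        rw [hA, ha, hb]
      neg_mem' := by
        intro a ha
        have : -a = a := neg_eq_of_add_eq_zero_left (add_self0 a)
        change A (-a) = -a
        rw [this]; exact ha }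
  have hW : ∀ x, x ∈ W ↔ A x = x := fun x => Iff.rfl
  have hWsing : ∀ u ∈ W, Q u = 0 := by
    intro u hu
    apply hℓY
    rw [hY]
    refine ⟨normq u, ?_⟩
    rw [hN, (hW u).1 hu]
  have hmax : ∀ v, (∀ u ∈ W, Bf v u = 0) → v ∈ W := by
    intro v hv
    rw [hW]
    by_contra hvne
    have hne0 : v + A v ≠ 0 := fun h => hvne (eq_of_add_eq_zero h).symm
    obtain ⟨u, hu⟩ := hnd _ hne0
    apply hu
    have h1 : u + A u ∈ W := by rw [hW, hA, hAA, add_comm]
    have h3 := hv _ h1
    rw [map_add] at h3 ⊢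
    have h4 : Bf u (A v) = Bf v (A u) := by
      rw [← hBfA u (A v), hAA, hBfsymm]
    rw [h4, hBfsymm u v]; exact h3
  have hpos := expSum_eq_card_of_lagrangian Bf Q hQ W hWsing hmax
  -- compute the exponential sum
  let Fx : Submodule (ZMod 2) F := AddSubgroup.toZModSubmodule 2
    { carrier := {c | c ^ q = c}
      zero_mem' := zero_pow hq0
      add_mem' := by
        intro a b ha hb
        change (a + b) ^ q = a + b
        rw [addq, ha, hb]
      neg_mem' := by
        intro a ha
        have : -a = a := neg_eq_of_add_eq_zero_left (add_self0 a)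
        change (-a) ^ q = -a
        rw [this]; exact ha }
  have hFx : ∀ x, x ∈ Fx ↔ x ^ q = x := fun x => Iff.rfl
  let g : F → Fx := fun x => ⟨x ^ (q + 1), normq x⟩
  have hsum0 : ∑ c : Fx, sgn (ℓ c) = 0 :=
    sum_sgn_dual_eq_zero (ℓ.comp Fx.subtype) ⟨⟨c₁, hc₁⟩, hℓ1⟩
  have hfib : ∀ c : Fx, (Fintype.card {x : F // g x = c} : ℤ) = if c = 0 then 1 else (q : ℤ) + 1 := by
    intro c
    split_ifs with hc
    · subst hc
      have : Fintype.card {x : F // g x = 0} = 1 := by
        rw [Fintype.card_eq_one_iff]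
        refine ⟨⟨0, Subtype.ext (zero_pow (by omega))⟩, ?_⟩
        rintro ⟨x, hx⟩
        apply Subtype.ext
        have : x ^ (q + 1) = 0 := congrArg Subtype.val hx
        exact pow_eq_zero_iff (by omega) |>.1 this
      rw [this]; rfl
    · have hc0 : (c : F) ≠ 0 := fun h => hc (Subtype.ext h)
      have h1 := Cfsg.Agent.S0754.result hF.out (c : F) hc0 c.2
      have h3 : Fintype.card {x : F // g x = c} = q + 1 := by
        rw [← h1, Nat.card_eq_fintype_card]
        apply Fintype.card_congr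
        exact Equiv.subtypeEquivRight (fun x => ⟨fun h => congrArg Subtype.val h, fun h => Subtype.ext h⟩)
      rw [h3]; push_cast; rfl
  have hval : expSum Q = -(q : ℤ) := by
    unfold expSum
    have h1 : ∑ x, sgn (Q x) = ∑ c : Fx, ∑ x : {x : F // g x = c}, sgn (ℓ c) := by
      rw [← Fintype.sum_fiberwise g (fun x => sgn (Q x))]
      apply Finset.sum_congr rfl
      intro c _
      apply Finset.sum_congr rfl
      rintro ⟨x, hx⟩ _
      change sgn (ℓ (x ^ (q + 1))) = _
      rw [← hx]
    rw [h1]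
    have h3 : ∀ c : Fx, ∑ x : {x : F // g x = c}, sgn (ℓ c)
        = ((q : ℤ) + 1) * sgn (ℓ c) - if c = 0 then (q : ℤ) else 0 := by
      intro c
      rw [Finset.sum_const, Finset.card_univ, nsmul_eq_mul, hfib]
      split_ifs with hc
      · subst hc; simp
      · ring
    simp_rw [h3]
    rw [Finset.sum_sub_distrib, ← Finset.mul_sum, hsum0]
    simp
  rw [hval] at hpos
  have : (0 : ℤ) ≤ Nat.card W := by positivity
  have hq1 : (0 : ℤ) < q := by exact_mod_cast Nat.pos_of_ne_zero hq0
  omega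

/-- an automorphism whose square is inner centralizes the centre -/
theorem aut_center_fixed (α : MulAut (UU F q)) (g : UU F q)
    (h : ∀ u, α (α u) = g * u * g⁻¹) : ∀ x : UU F q, x.a = 0 → α x = x := by
  classical
  have hcen : ∀ x : UU F q, x.a = 0 → α (α x) = x := by
    intro x hx
    rw [h]
    have := (mem_center_iff x).2 hx
    rw [Subgroup.mem_center_iff] at this
    rw [this g]; group
  let B : F → F := fun c => if hc : c ^ q = c then (α (zz c hc)).c else 0
  have hBdef : ∀ c (hc : c ^ q = c), B c = (α (zz c hc)).c := fun c hc => dif_pos hc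
  have hαzz : ∀ c (hc : c ^ q = c), ∃ hc' : (B c) ^ q = B c, α (zz c hc) = zz (B c) hc' := by
    intro c hc
    have h0 : (α (zz c hc)).a = 0 := aut_a_eq_zero α rfl
    have h1 := eq_zz h0
    have h3 : (B c) ^ q = B c := by rw [hBdef c hc]; exact c_fixed h0
    refine ⟨h3, ?_⟩
    apply UU.ext
    · rw [h0]; rfl
    · rw [zz_c, hBdef c hc]
  have key := core_idx (q := q) (AA α) B (AA_add α)
    (by
      intro a
      have h1 := h (lift q a)
      have h3 := congrArg UU.a h1
      rw [aut_a, aut_a, lift_a, mul_a, mul_a, inv_a, lift_a] at h3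
      rw [h3]
      linear_combination (add_self0 g.a))
    (fun c hc => (hαzz c hc).1)
    (by
      intro c d hc hd
      have hcd : (c + d) ^ q = c + d := by rw [addq, hc, hd]
      rw [hBdef _ hcd, hBdef _ hc, hBdef _ hd]
      have : zz (c + d) hcd = zz c hc * zz d hd := by
        apply UU.ext
        · simp
        · simp
      rw [this, map_mul, mul_c, aut_a_eq_zero α (zz_a d hd)]
      ring)
    (by
      intro c hc
      obtain ⟨hc', h1⟩ := hαzz c hc
      rw [hBdef _ hc', ← h1, hcen _ rfl, zz_c])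
    (by
      intro a
      rw [hBdef _ (normq a)]
      have : zz (a ^ (q + 1)) (normq a) = lift q a * lift q a := by
        apply UU.ext
        · rw [mul_self_a]; rfl
        · rw [mul_self_c]; rfl
      rw [this, aut_sq_c, lift_a])
  intro x hx
  have h1 := eq_zz hx
  obtain ⟨hc', h3⟩ := hαzz x.c (c_fixed hx)
  rw [h1, h3]
  apply UU.ext
  · rfl
  · rw [zz_c, zz_c]; exact key _ (c_fixed hx)

theorem exists_equiv_SU (hq : Even q) (S : Sylow 2 (Cfsg.SU 3 F q)) :
    Nonempty (UU F q ≃* (S : Subgroup (Cfsg.SU 3 F q))) := by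
  have : Fact (Nat.Prime 2) := ⟨Nat.prime_two⟩
  have hq2 := Cfsg.Agent.Lib.Helper13.two_le_of_card_sq hF.out
  set R : Subgroup (Cfsg.SU 3 F q) := (toSU : UU F q →* Cfsg.SU 3 F q).range with hR
  have e1 : UU F q ≃* R := MonoidHom.ofInjective toSU_injective
  have hcard : Nat.card R = q ^ 3 := by rw [← Nat.card_congr e1.toEquiv, card_UU]
  have hp : IsPGroup 2 R := isPGroup_UU.of_equiv e1
  have hidx : ¬ 2 ∣ R.index := by
    intro hdvd
    have h1 := Cfsg.Agent.Lib.Helper5.card_SU_mul (F := F) (n := 3) hF.out (by norm_num)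
    rw [Cfsg.Agent.Lib.Helper5.card_GU hF.out 3, ← Subgroup.card_mul_index R, hcard] at h1
    have h2' : ∏ i ∈ Finset.range 3, (if Even i then q ^ (i + 1) + 1 else q ^ (i + 1) - 1)
        = (q + 1) * (q ^ 2 - 1) * (q ^ 3 + 1) := by
      simp [Finset.prod_range_succ]
    rw [h2'] at h1
    have h3 : R.index = (q ^ 2 - 1) * (q ^ 3 + 1) := by
      have h4 : (q ^ 3 * (q + 1)) * (R.index)
          = (q ^ 3 * (q + 1)) * ((q ^ 2 - 1) * (q ^ 3 + 1)) := by
        have e : (3 * (3 - 1) / 2) = 3 := by norm_num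
        rw [e] at h1
        calc (q ^ 3 * (q + 1)) * (R.index)
            = ((q + 1) * (q ^ 3 * R.index)) := by ring
          _ = q ^ 3 * ((q + 1) * (q ^ 2 - 1) * (q ^ 3 + 1)) := h1
          _ = _ := by ring
      exact Nat.eq_of_mul_eq_mul_left (by positivity) h4
    have h5 : 2 ∣ (q ^ 2 - 1) * (q ^ 3 + 1) := by rw [← h3]; exact hdvd
    obtain ⟨k, rfl⟩ := hq
    have o1 : Odd ((k + k) ^ 2 - 1) := by
      have : (k + k) ^ 2 = 2 * (2 * k * k - 1) + 2 := by
        have hk : 1 ≤ k := by omega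
        obtain ⟨j, rfl⟩ : ∃ j, k = j + 1 := ⟨k - 1, by omega⟩
        have : 2 * (j + 1) * (j + 1) - 1 = 2 * j * j + 4 * j + 1 := by
          have : 2 * (j + 1) * (j + 1) = 2 * j * j + 4 * j + 1 + 1 := by ring
          omega
        rw [this]; ring
      rw [this]
      exact ⟨2 * k * k - 1, by omega⟩
    have o2 : Odd ((k + k) ^ 3 + 1) := ⟨4 * k ^ 3, by ring⟩
    have := (o1.mul o2)
    rw [← Nat.not_even_iff_odd] at this
    exact this (even_iff_two_dvd.mpr h5)
  let P₀ : Sylow 2 (Cfsg.SU 3 F q) := hp.toSylow hidx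
  have e2 : (P₀ : Subgroup (Cfsg.SU 3 F q)) ≃* (S : Subgroup (Cfsg.SU 3 F q)) := Sylow.equiv P₀ S
  exact ⟨e1.trans e2⟩

/-- the group-theoretic consequence -/
theorem center_le_center_of_index_two {R : Type*} [Group R] (S' : Subgroup R)
    (e : S' ≃* UU F q) (hidx : S'.index = 2) :
    (Subgroup.center S').map S'.subtype ≤ Subgroup.center R := by
  haveI hn : S'.Normal := Subgroup.normal_of_index_eq_two hidx
  rintro _ ⟨z, hz, rfl⟩
  rw [Subgroup.mem_center_iff]
  intro r
  have hz' : ∀ s : S', s * z = z * s := Subgroup.mem_center_iff.1 hz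
  by_cases hr : r ∈ S'
  · exact congrArg Subtype.val (hz' ⟨r, hr⟩)
  · have hr2 : r * r ∈ S' := (Subgroup.mul_self_mem_of_index_two hidx r)
    let α : MulAut (UU F q) := e.symm.trans ((MulAut.conjNormal r).trans e)
    have hα : ∀ u, α u = e (MulAut.conjNormal r (e.symm u)) := fun u => rfl
    have h1 : ∀ u, α (α u) = e ⟨r * r, hr2⟩ * u * (e ⟨r * r, hr2⟩)⁻¹ := by
      intro u
      rw [hα, hα, e.symm_apply_apply]
      have : MulAut.conjNormal r (MulAut.conjNormal r (e.symm u))
          = ⟨r * r, hr2⟩ * e.symm u * (⟨r * r, hr2⟩ : S')⁻¹ := by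
        apply Subtype.ext
        simp only [MulAut.conjNormal_apply, Subgroup.coe_mul, Subgroup.coe_inv]
        group
      rw [this, map_mul, map_mul, map_inv, e.apply_symm_apply]
    have hza : (e z).a = 0 := by
      rw [← mem_center_iff, Subgroup.mem_center_iff]
      intro y
      obtain ⟨y', rfl⟩ := e.surjective y
      rw [← map_mul, ← map_mul, hz' y']
    have h3 := aut_center_fixed α _ h1 (e z) hza
    rw [hα, e.symm_apply_apply] at h3
    have h4 := e.injective h3
    have h5 := congrArg Subtype.val h4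
    rw [MulAut.conjNormal_apply] at h5
    change r * (z : R) = z * r
    calc r * (z : R) = (r * z * r⁻¹) * r := by group
      _ = z * r := by rw [h5]

end Cfsg.Agent.Lib.Helper20.U3Syl
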